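import Cfsg.Agent.Nodes.RGDFoldSL
import Mathlib.LinearAlgebra.Matrix.GeneralLinearGroup.Projective
import Mathlib.FieldTheory.Finite.Basic

/-!
# The action on a subgroup `SL₂` gives a homomorphism to `PGL₂` (helper383)
-/

set_option autoImplicit false
set_option linter.unusedSectionVars false

namespace Cfsg.Agent.H383.HT.PglAbs

open Matrix
open Cfsg.Agent.ChevalleyStructure.SL2Hom (up lo mem_closure_SL2)

section conj

variable {F : Type*} [Field F]

/-- conjugation of `SL₂` by a matrix of `GL₂` -/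
noncomputable def cjS (A : GL (Fin 2) F) : SpecialLinearGroup (Fin 2) F →* SpecialLinearGroup (Fin 2) F where
  toFun g := ⟨(A : Matrix (Fin 2) (Fin 2) F) * g.1 * ((A⁻¹ : GL (Fin 2) F) : Matrix (Fin 2) (Fin 2) F), by
    rw [det_mul, det_mul, g.2, mul_one, ← det_mul, ← Units.val_mul, mul_inv_cancel, Units.val_one, det_one]⟩
  map_one' := by
    apply Subtype.ext
    change (A : Matrix (Fin 2) (Fin 2) F) * 1 * ((A⁻¹ : GL (Fin 2) F) : Matrix (Fin 2) (Fin 2) F) = 1
    rw [mul_one, ← Units.val_mul, mul_inv_cancel, Units.val_one]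
  map_mul' g h := by
    apply Subtype.ext
    change (A : Matrix (Fin 2) (Fin 2) F) * (g.1 * h.1) * ((A⁻¹ : GL (Fin 2) F) : Matrix (Fin 2) (Fin 2) F) =
      ((A : Matrix (Fin 2) (Fin 2) F) * g.1 * ((A⁻¹ : GL (Fin 2) F) : Matrix (Fin 2) (Fin 2) F)) *
      ((A : Matrix (Fin 2) (Fin 2) F) * h.1 * ((A⁻¹ : GL (Fin 2) F) : Matrix (Fin 2) (Fin 2) F))
    have h1 : ((A⁻¹ : GL (Fin 2) F) : Matrix (Fin 2) (Fin 2) F) * (A : Matrix (Fin 2) (Fin 2) F) = 1 := by
      rw [← Units.val_mul, inv_mul_cancel, Units.val_one]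
    calc _ = (A : Matrix (Fin 2) (Fin 2) F) * g.1 * 1 * h.1 *
          ((A⁻¹ : GL (Fin 2) F) : Matrix (Fin 2) (Fin 2) F) := by rw [mul_one]; simp only [mul_assoc]
      _ = _ := by rw [← h1]; simp only [mul_assoc]

theorem coe_cjS (A : GL (Fin 2) F) (g : SpecialLinearGroup (Fin 2) F) :
    (cjS A g).1 = (A : Matrix (Fin 2) (Fin 2) F) * g.1 * ((A⁻¹ : GL (Fin 2) F) : Matrix (Fin 2) (Fin 2) F) := rfl

theorem cjS_eq_of {A : GL (Fin 2) F} {g g' : SpecialLinearGroup (Fin 2) F}
    (h : (A : Matrix (Fin 2) (Fin 2) F) * g.1 = g'.1 * (A : Matrix (Fin 2) (Fin 2) F)) : cjS A g = g' := by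
  apply Subtype.ext
  rw [coe_cjS, h, mul_assoc, ← Units.val_mul, mul_inv_cancel, Units.val_one, mul_one]

theorem cjS_mul (A B : GL (Fin 2) F) (g : SpecialLinearGroup (Fin 2) F) : cjS (A * B) g = cjS A (cjS B g) := by
  apply cjS_eq_of
  rw [coe_cjS, coe_cjS]
  have h1 : ((A⁻¹ : GL (Fin 2) F) : Matrix (Fin 2) (Fin 2) F) * (A : Matrix (Fin 2) (Fin 2) F) = 1 := by
    rw [← Units.val_mul, inv_mul_cancel, Units.val_one]
  have h2 : ((B⁻¹ : GL (Fin 2) F) : Matrix (Fin 2) (Fin 2) F) * (B : Matrix (Fin 2) (Fin 2) F) = 1 := by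
    rw [← Units.val_mul, inv_mul_cancel, Units.val_one]
  rw [Units.val_mul]
  simp only [mul_assoc]
  rw [← mul_assoc ((A⁻¹ : GL (Fin 2) F) : Matrix (Fin 2) (Fin 2) F), h1, one_mul, h2, mul_one]

theorem cjS_one (g : SpecialLinearGroup (Fin 2) F) : cjS (1 : GL (Fin 2) F) g = g := by
  apply cjS_eq_of
  rw [Units.val_one, one_mul, mul_one]

theorem cjS_toGL (a g : SpecialLinearGroup (Fin 2) F) : cjS (SpecialLinearGroup.toGL a) g = a * g * a⁻¹ := by
  apply cjS_eq_of
  have h1 : a.1 * g.1 = (a * g * a⁻¹ * a).1 := by rw [inv_mul_cancel_right]; rfl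
  exact h1

variable {Y : Type*} [Group Y]

/-- `l` acts on the image of `Φ` as the matrix `A` -/
def Rel (Φ : SpecialLinearGroup (Fin 2) F →* Y) (l : Y) (A : GL (Fin 2) F) : Prop :=
  ∀ g, l * Φ g * l⁻¹ = Φ (cjS A g)

variable {Φ : SpecialLinearGroup (Fin 2) F →* Y}

theorem Rel.one : Rel Φ 1 1 := fun g => by rw [cjS_one, one_mul, inv_one, mul_one]

theorem Rel.mul {l l' : Y} {A A' : GL (Fin 2) F} (h : Rel Φ l A) (h' : Rel Φ l' A') : Rel Φ (l * l') (A * A') :=
  fun g => by rw [cjS_mul, ← h, ← h']; group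

theorem Rel.inv {l : Y} {A : GL (Fin 2) F} (h : Rel Φ l A) : Rel Φ l⁻¹ A⁻¹ := fun g => by
  have h1 := h (cjS A⁻¹ g)
  rw [← cjS_mul, mul_inv_cancel, cjS_one] at h1
  rw [← h1]
  group

theorem Rel.map (a : SpecialLinearGroup (Fin 2) F) : Rel Φ (Φ a) (SpecialLinearGroup.toGL a) := fun g => by
  rw [cjS_toGL, map_mul, map_mul, map_inv]

/-- it is enough to check the generators -/
theorem Rel.of_gen {l : Y} {A : GL (Fin 2) F} (h1 : ∀ r, l * Φ (up r) * l⁻¹ = Φ (cjS A (up r)))
    (h2 : ∀ r, l * Φ (lo r) * l⁻¹ = Φ (cjS A (lo r))) : Rel Φ l A := by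
  intro g
  have h3 : Subgroup.closure (Set.range (up (F := F)) ∪ Set.range (lo (F := F))) ≤
      ((MulAut.conj l).toMonoidHom.comp Φ).eqLocus (Φ.comp (cjS A)) := by
    refine (Subgroup.closure_le _).2 ?_
    rintro x (⟨t, rfl⟩ | ⟨t, rfl⟩)
    · exact h1 t
    · exact h2 t
  exact h3 (mem_closure_SL2 g)

/-- the elements acting trivially are the scalars -/
theorem central_of (hup : ∀ a b : F, Φ (up a) = Φ (up b) → a = b) (hud : ∀ a b : F, Φ (up a) = Φ (lo b) → a = 0)
    {B : GL (Fin 2) F} (hB : Rel Φ 1 B) : B ∈ Subgroup.center (GL (Fin 2) F) := by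
  have hB' : ∀ g, Φ g = Φ (cjS B g) := fun g => by rw [← hB g, one_mul, inv_one, mul_one]
  have hlo : ∀ a b : F, Φ (up a) = Φ (lo b) → b = 0 := by
    intro a b h1
    have h2 := hud a b h1
    subst h2
    have e0 : (up 0 : SpecialLinearGroup (Fin 2) F) = 1 := by
      apply Subtype.ext
      exact Matrix.one_fin_two.symm
    have e1 : Φ (lo b) = 1 := by rw [← h1, e0, map_one]
    have e2 : (up (-b) : SpecialLinearGroup (Fin 2) F) =
        (Nodes.RGDFoldSL.wS 1)⁻¹ * lo b * Nodes.RGDFoldSL.wS 1 := by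
      have := Nodes.RGDFoldSL.lo_eq b
      rw [this]
      group
    have e3 : Φ (up (-b)) = Φ (up 0) := by
      rw [e2, map_mul, map_mul, e1, mul_one, ← map_mul, inv_mul_cancel, e0]
    have := hup _ _ e3
    exact neg_eq_zero.1 this
  obtain ⟨a, b, c, d, hM⟩ : ∃ a b c d : F, (B : Matrix (Fin 2) (Fin 2) F) = !![a, b; c, d] :=
    ⟨_, _, _, _, Matrix.eta_fin_two _⟩
  have hΔ : a * d - b * c ≠ 0 := by
    have h1 : IsUnit (B : Matrix (Fin 2) (Fin 2) F).det := (Matrix.isUnit_iff_isUnit_det _).1 B.isUnit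
    rw [hM, det_fin_two_of] at h1
    exact h1.ne_zero
  have hc : c = 0 := by
    by_contra hc
    obtain ⟨e₀, he₀⟩ : ∃ e₀, e₀ = a * d - b * c := ⟨_, rfl⟩
    have he₁ : e₀ ≠ 0 := by rw [he₀]; exact hΔ
    have h1 : cjS B (up 1) = up (a / c) * lo (-(c ^ 2) / e₀) * (up (a / c))⁻¹ := by
      apply cjS_eq_of
      rw [hM]
      have e : (up (a / c) : SpecialLinearGroup (Fin 2) F)⁻¹ = up (-(a / c)) := by
        rw [inv_eq_iff_mul_eq_one]
        apply Subtype.ext
        change !![1, a / c; 0, 1] * !![1, -(a / c); 0, 1] = (1 : Matrix (Fin 2) (Fin 2) F)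
        rw [Matrix.one_fin_two, Matrix.mul_fin_two]
        simp
      rw [e]
      change !![a, b; c, d] * !![1, 1; 0, 1] = (!![1, a / c; 0, 1] * !![1, 0; -(c ^ 2) / e₀, 1] *
        !![1, -(a / c); 0, 1]) * !![a, b; c, d]
      rw [Matrix.mul_fin_two, Matrix.mul_fin_two, Matrix.mul_fin_two, Matrix.mul_fin_two]
      ext i j
      fin_cases i <;> fin_cases j
      · simp
        field_simp
        ring
      · simp
        field_simp
        rw [he₀]
        ring
      · simp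
        field_simp
        ring
      · simp
        field_simp
        rw [he₀]
        ring
    have h2 := hB' (up 1)
    rw [h1] at h2
    have h3 : Φ (up 1) = Φ (lo (-(c ^ 2) / e₀)) := by
      have e : (up 1 : SpecialLinearGroup (Fin 2) F) = (up (a / c))⁻¹ * up 1 * up (a / c) := by
        have : up 1 * up (a / c) = (up (a / c) * up 1 : SpecialLinearGroup (Fin 2) F) := by
          apply Subtype.ext
          change !![1, 1; 0, 1] * !![1, a / c; 0, 1] = !![1, a / c; 0, 1] * !![1, 1; 0, 1]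
          rw [Matrix.mul_fin_two, Matrix.mul_fin_two]
          simp [add_comm]
        rw [mul_assoc, this, inv_mul_cancel_left]
      rw [e, map_mul, map_mul, h2, ← map_mul, ← map_mul]
      congr 1
      group
    exact one_ne_zero (hud _ _ h3)
  have hb : b = 0 := by
    by_contra hb
    subst hc
    have h1 : cjS B (lo 1) = lo (d / b) * up (-(b ^ 2) / (a * d)) * (lo (d / b))⁻¹ := by
      apply cjS_eq_of
      rw [hM]
      have e : (lo (d / b) : SpecialLinearGroup (Fin 2) F)⁻¹ = lo (-(d / b)) := by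
        rw [inv_eq_iff_mul_eq_one]
        apply Subtype.ext
        change !![1, 0; d / b, 1] * !![1, 0; -(d / b), 1] = (1 : Matrix (Fin 2) (Fin 2) F)
        rw [Matrix.one_fin_two, Matrix.mul_fin_two]
        simp
      rw [e]
      have had : a * d ≠ 0 := by simpa using hΔ
      have ha : a ≠ 0 := left_ne_zero_of_mul had
      have hd : d ≠ 0 := right_ne_zero_of_mul had
      change !![a, b; 0, d] * !![1, 0; 1, 1] = (!![1, 0; d / b, 1] * !![1, -(b ^ 2) / (a * d); 0, 1] *
        !![1, 0; -(d / b), 1]) * !![a, b; 0, d]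
      rw [Matrix.mul_fin_two, Matrix.mul_fin_two, Matrix.mul_fin_two, Matrix.mul_fin_two]
      ext i j
      fin_cases i <;> fin_cases j
      · simp
        field_simp
      · simp
        field_simp
        ring
      · simp
        field_simp
        ring
      · simp
        field_simp
        ring
    have h2 := hB' (lo 1)
    rw [h1] at h2
    have h3 : Φ (up (-(b ^ 2) / (a * d))) = Φ (lo 1) := by
      have e : (lo 1 : SpecialLinearGroup (Fin 2) F) = (lo (d / b))⁻¹ * lo 1 * lo (d / b) := by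
        have : lo 1 * lo (d / b) = (lo (d / b) * lo 1 : SpecialLinearGroup (Fin 2) F) := by
          apply Subtype.ext
          change !![1, 0; 1, 1] * !![1, 0; d / b, 1] = !![1, 0; d / b, 1] * !![1, 0; 1, 1]
          rw [Matrix.mul_fin_two, Matrix.mul_fin_two]
          simp [add_comm]
        rw [mul_assoc, this, inv_mul_cancel_left]
      rw [e, map_mul, map_mul, h2, ← map_mul, ← map_mul]
      congr 1
      group
    exact one_ne_zero (hlo _ _ h3)
  subst hb
  subst hc
  have had : a * d ≠ 0 := by simpa using hΔ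
  have ha : a ≠ 0 := left_ne_zero_of_mul had
  have hd : d ≠ 0 := right_ne_zero_of_mul had
  have h1 : cjS B (up 1) = up (a / d) := by
    apply cjS_eq_of
    rw [hM]
    change !![a, 0; 0, d] * !![1, 1; 0, 1] = !![1, a / d; 0, 1] * !![a, 0; 0, d]
    rw [Matrix.mul_fin_two, Matrix.mul_fin_two]
    simp [hd]
  have h2 := hup _ _ ((hB' (up 1)).trans (congrArg Φ h1))
  have h3 : a = d := by
    field_simp at h2
    exact h2.symm
  subst h3
  rw [Subgroup.mem_center_iff]
  intro g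
  apply Units.ext
  rw [Units.val_mul, Units.val_mul, hM]
  have e : (!![a, 0; 0, a] : Matrix (Fin 2) (Fin 2) F) = a • (1 : Matrix (Fin 2) (Fin 2) F) := by
    rw [Matrix.one_fin_two]
    simp
  rw [e, Matrix.mul_smul, Matrix.smul_mul, mul_one, one_mul]

theorem Rel.unique (hup : ∀ a b : F, Φ (up a) = Φ (up b) → a = b) (hud : ∀ a b : F, Φ (up a) = Φ (lo b) → a = 0)
    {l : Y} {A A' : GL (Fin 2) F} (h : Rel Φ l A) (h' : Rel Φ l A') :
    Matrix.ProjGenLinGroup.mk A = Matrix.ProjGenLinGroup.mk A' := by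
  have h1 := h.inv.mul h'
  rw [inv_mul_cancel] at h1
  have h2 := central_of hup hud h1
  rw [← Matrix.ProjGenLinGroup.mk_eq_one, map_mul, map_inv, inv_mul_eq_one] at h2
  exact h2

/-- **the homomorphism to `PGL₂`** -/
theorem exists_hom (hup : ∀ a b : F, Φ (up a) = Φ (up b) → a = b) (hud : ∀ a b : F, Φ (up a) = Φ (lo b) → a = 0)
    {L : Subgroup Y} (hex : ∀ l ∈ L, ∃ A : GL (Fin 2) F, Rel Φ l A) :
    ∃ f : ↥L →* Matrix.ProjGenLinGroup (Fin 2) F, ∀ (l : Y) (hl : l ∈ L) (A : GL (Fin 2) F), Rel Φ l A →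
      f ⟨l, hl⟩ = Matrix.ProjGenLinGroup.mk A := by
  choose A hA using hex
  refine ⟨MonoidHom.mk' (fun l => Matrix.ProjGenLinGroup.mk (A l.1 l.2)) fun l l' => ?_, fun l hl B hB => ?_⟩
  · rw [← map_mul]
    exact Rel.unique hup hud (hA _ (l * l').2) ((hA _ l.2).mul (hA _ l'.2))
  · exact Rel.unique hup hud (hA l hl) hB

end conj

end Cfsg.Agent.H383.HT.PglAbs
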